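import Cfsg.Agent.H369.G3.Three
import Cfsg.Agent.H542.G2X.Spec
import Cfsg.Agent.H421.Narrow
import Cfsg.Agent.H437.Iso.TwD4
import Cfsg.Agent.H163.PG.Ord
import Cfsg.Agent.H816.OutEmb
import Cfsg.Agent.H902.Iso
import Cfsg.Agent.S2475

/-!
# `G₂(3)`: the socle (helper369, S3483)

`q3` : `G` finite with the element orders of `G₂(3)`, `K` a normal subgroup, `S` a simple normal subgroup of `G ⧸ K` with
trivial centralizer, `7` and `13` do not divide `|K|` and the index of `S`. Then `S ≃* G₂(3)`.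
-/

set_option autoImplicit false

namespace Cfsg.Agent.H369.G3.Q3

open Cfsg Cfsg.Lie Cfsg.Agent.OrdDiv Cfsg.Agent.H436 Cfsg.Agent.H542.G2X

universe u v

/-- the element orders of `G₂(3)` -/
def Od (m : ℕ) : Prop := m ∣ 12 ∨ m ∣ 8 ∨ m ∣ 13 ∨ m ∣ 7 ∨ m ∣ 9

theorem Od.dvd {m n : ℕ} (h : Od n) (hm : m ∣ n) : Od m := by
  rcases h with h | h | h | h | h
  · exact Or.inl (hm.trans h)
  · exact Or.inr (Or.inl (hm.trans h))
  · exact Or.inr (Or.inr (Or.inl (hm.trans h)))
  · exact Or.inr (Or.inr (Or.inr (Or.inl (hm.trans h))))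
  · exact Or.inr (Or.inr (Or.inr (Or.inr (hm.trans h))))

theorem od_iff {F : Type*} [Field F] [Fintype F] (hF : Fintype.card F = 3) {m : ℕ} :
    (∃ x : ↥(chevG2.group F), orderOf x = m) ↔ Od m := by
  have P : Par 3 1 (Fintype.card F) := ⟨Nat.prime_three, le_rfl, by rw [hF]; norm_num, by rw [hF]⟩
  rw [om_iff P, hF]
  unfold Om Od
  norm_num
  constructor
  · rintro (h | h | h | h | h | h)
    · exact Or.inl h
    · exact Or.inl (h.trans (by norm_num))
    · exact Or.inr (Or.inl h)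
    · exact Or.inr (Or.inr (Or.inl h))
    · exact Or.inr (Or.inr (Or.inr (Or.inl h)))
    · exact Or.inr (Or.inr (Or.inr (Or.inr h)))
  · rintro (h | h | h | h | h)
    · exact Or.inl h
    · exact Or.inr (Or.inr (Or.inl h))
    · exact Or.inr (Or.inr (Or.inr (Or.inl h)))
    · exact Or.inr (Or.inr (Or.inr (Or.inr (Or.inl h))))
    · exact Or.inr (Or.inr (Or.inr (Or.inr (Or.inr h))))

/-- the names -/
theorem names : ∀ g ∈ H421.Narrow.NL, 7 ∣ ordN g → 13 ∣ ordN g → ¬ 5 ∣ ordN g → ¬ 11 ∣ ordN g →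
    g = .psl 2 13 ∨ g = .psl 2 27 ∨ g = .td4 2 ∨ g = .g2 3 := by decide +kernel

theorem ord13 : ordN (.psl 2 13) = 1092 := by decide +kernel

section

variable {G : Type u} [Group G] [Finite G] (hO : ∀ x : G, Od (orderOf x)) (h9 : ∃ x : G, orderOf x = 9)
  (K : Subgroup G) [K.Normal] (S : Subgroup (G ⧸ K)) [S.Normal]

include hO in
theorem od_sub (s : S) : Od (orderOf s) := by
  rw [← Subgroup.orderOf_coe]
  obtain ⟨g, hg⟩ := QuotientGroup.mk_surjective (s : G ⧸ K)
  rw [← hg]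
  exact (hO g).dvd (orderOf_map_dvd (QuotientGroup.mk' K) g)

include hO h9 in
/-- **`L₂(13)` is not the socle.** -/
theorem not_psl13 (hs : IsSimpleGroup S) (hc : Nat.card S = 1092) (hout : ¬ 3 ∣ S.index) (h7K : ¬ 7 ∣ Nat.card K) :
    False := by
  let f : ↥(S.comap (QuotientGroup.mk' K)) →* S := (QuotientGroup.mk' K).subgroupComap S
  have hf : Function.Surjective f :=
    MonoidHom.subgroupComap_surjective_of_surjective _ _ (QuotientGroup.mk'_surjective K)
  have e : (↥(S.comap (QuotientGroup.mk' K)) ⧸ f.ker) ≃* S := QuotientGroup.quotientKerEquivOfSurjective f hf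
  have hs' : IsSimpleGroup (↥(S.comap (QuotientGroup.mk' K)) ⧸ f.ker) := by
    have := hs
    exact e.isSimpleGroup
  have hker : ∀ x : ↥(S.comap (QuotientGroup.mk' K)), x ∈ f.ker → (x : G) ∈ K := by
    intro x hx
    have h1 : ((f x : S) : G ⧸ K) = 1 := by rw [MonoidHom.mem_ker.1 hx]; rfl
    exact (QuotientGroup.eq_one_iff (x : G)).1 h1
  have hO' : ∀ x : ↥(S.comap (QuotientGroup.mk' K)), Od (orderOf x) := fun x => by
    rw [← Subgroup.orderOf_coe]; exact hO x
  refine Three.no_nine f.ker hs' (by rw [Nat.card_congr e.toEquiv, hc]) ?_ ?_ ?_ ?_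
  · intro h
    have : Fact (Nat.Prime 7) := ⟨by norm_num⟩
    obtain ⟨⟨x, hx⟩, hx7⟩ := exists_prime_orderOf_dvd_card' 7 h
    rw [Subgroup.orderOf_mk, ← Subgroup.orderOf_coe] at hx7
    apply h7K
    rw [← hx7, ← Subgroup.orderOf_mk _ (hker x hx)]
    exact orderOf_dvd_natCard _
  · intro x hx
    rcases hO' x with h | h | h | h | h
    · exact absurd (hx.trans h) (by norm_num)
    · exact absurd (hx.trans h) (by norm_num)
    · exact absurd (hx.trans h) (by norm_num)
    · exact Nat.dvd_antisymm h hx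
    · exact absurd (hx.trans h) (by norm_num)
  · rintro ⟨x, hx⟩
    have h1 := hO' x
    rw [hx] at h1
    rcases h1 with h | h | h | h | h <;> revert h <;> norm_num
  · obtain ⟨x, hx⟩ := h9
    have h1 : orderOf (((x : G ⧸ K) : (G ⧸ K) ⧸ S)) ∣ 9 := by
      rw [← hx]
      exact (orderOf_map_dvd (QuotientGroup.mk' S) _).trans (orderOf_map_dvd (QuotientGroup.mk' K) x)
    have h2 : orderOf (((x : G ⧸ K) : (G ⧸ K) ⧸ S)) ∣ S.index := orderOf_dvd_natCard _
    have h3 : ((x : G ⧸ K) : (G ⧸ K) ⧸ S) = 1 := by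
      rw [← orderOf_eq_one_iff]
      obtain ⟨m, hm, hm'⟩ := (Nat.dvd_prime_pow Nat.prime_three).1 (show _ ∣ 3 ^ 2 from h1)
      rcases m with _ | m
      · rw [hm', pow_zero]
      · exfalso
        apply hout
        rw [hm'] at h2
        exact (dvd_pow_self 3 (by omega)).trans h2
    have h4 : (x : G ⧸ K) ∈ S := (QuotientGroup.eq_one_iff _).1 h3
    exact ⟨⟨x, h4⟩, by rw [← Subgroup.orderOf_coe, hx]⟩

end

/-- **`q = 3`.** -/
theorem q3 (T : OrderTable.{u}) {F : Type v} [Field F] [Fintype F] (hF : Fintype.card F = 3) {G : Type u} [Group G]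
    [Finite G] (hω : Set.range (orderOf : G → ℕ) = Set.range (orderOf : ↥(chevG2.group F) → ℕ))
    (K : Subgroup G) [K.Normal] (S : Subgroup (G ⧸ K)) [S.Normal] (hs : IsSimpleGroup S)
    (hna : ¬ IsMulCommutative S) (hC : Subgroup.centralizer (S : Set (G ⧸ K)) = ⊥) (h7K : ¬ 7 ∣ Nat.card K)
    (h13K : ¬ 13 ∣ Nat.card K) (h7S : ¬ 7 ∣ S.index) (h13S : ¬ 13 ∣ S.index) (hk : IsKnownSimple' S) :
    Nonempty (S ≃* ↥(chevG2.group F)) := by
  have hO : ∀ m, (∃ x : G, orderOf x = m) ↔ Od m := by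
    intro m
    rw [← od_iff hF]
    exact Set.ext_iff.1 hω m
  have hO1 : ∀ x : G, Od (orderOf x) := fun x => (hO _).1 ⟨x, rfl⟩
  have hOS := od_sub hO1 K S
  have h9 : ∃ x : G, orderOf x = 9 := (hO 9).2 (Or.inr (Or.inr (Or.inr (Or.inr dvd_rfl))))
  -- the primes
  have hcard : Nat.card G = Nat.card K * (Nat.card S * S.index) := by
    rw [Subgroup.card_mul_index, ← Subgroup.index_eq_card, Subgroup.card_mul_index]
  have hdvd : ∀ p : ℕ, p.Prime → Od p → ¬ p ∣ Nat.card K → ¬ p ∣ S.index → p ∣ Nat.card S := by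
    intro p hp h1 h2 h3
    obtain ⟨x, hx⟩ := (hO p).2 h1
    have h4 : p ∣ Nat.card G := hx ▸ orderOf_dvd_natCard x
    rw [hcard] at h4
    rcases hp.dvd_mul.1 h4 with h4 | h4
    · exact absurd h4 h2
    · rcases hp.dvd_mul.1 h4 with h4 | h4
      · exact h4
      · exact absurd h4 h3
  have h7 := hdvd 7 (by norm_num) (Or.inr (Or.inr (Or.inr (Or.inl dvd_rfl)))) h7K h7S
  have h13 := hdvd 13 (by norm_num) (Or.inr (Or.inr (Or.inl dvd_rfl))) h13K h13S
  have hpr : ∀ p : ℕ, p.Prime → p ∣ Nat.card S → p = 2 ∨ p = 3 ∨ p = 7 ∨ p = 13 := by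
    intro p hp h
    have : Fact p.Prime := ⟨hp⟩
    obtain ⟨x, hx⟩ := exists_prime_orderOf_dvd_card' p h
    have h1 := hOS x
    rw [hx] at h1
    rcases h1 with h | h | h | h | h
    · have h2 : p ∣ 2 ^ 2 * 3 := h
      rcases hp.dvd_mul.1 h2 with h2 | h2
      · exact Or.inl ((Nat.prime_dvd_prime_iff_eq hp Nat.prime_two).1 (hp.dvd_of_dvd_pow h2))
      · exact Or.inr (Or.inl ((Nat.prime_dvd_prime_iff_eq hp Nat.prime_three).1 h2))
    · have h2 : p ∣ 2 ^ 3 := h
      exact Or.inl ((Nat.prime_dvd_prime_iff_eq hp Nat.prime_two).1 (hp.dvd_of_dvd_pow h2))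
    · exact Or.inr (Or.inr (Or.inr ((Nat.prime_dvd_prime_iff_eq hp (by norm_num)).1 h)))
    · exact Or.inr (Or.inr (Or.inl ((Nat.prime_dvd_prime_iff_eq hp (by norm_num)).1 h)))
    · have h2 : p ∣ 3 ^ 2 := h
      exact Or.inr (Or.inl ((Nat.prime_dvd_prime_iff_eq hp Nat.prime_three).1 (hp.dvd_of_dvd_pow h2)))
  obtain ⟨g, hg⟩ := exists_named T hk fun h => hna ⟨⟨h⟩⟩
  have hNL := H421.Narrow.narrow hg fun p hp h => by
    rcases hpr p hp h with rfl | rfl | rfl | rfl <;> norm_num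
  have hord := hg.ord
  rcases names g hNL (hord ▸ h7) (hord ▸ h13) (fun h => by
    have := hpr 5 (by norm_num) (hord ▸ h)
    omega) (fun h => by
    have := hpr 11 (by norm_num) (hord ▸ h)
    omega) with rfl | rfl | rfl | rfl
  · -- `L₂(13)`
    exfalso
    obtain ⟨E, _, _, hE, ⟨e⟩⟩ := hg.real
    have hc : Nat.card S = 1092 := by rw [hord]; exact ord13
    have hind : S.index ∣ 2 := by
      have h1 := H816.OutEmb.index_dvd S (by rw [hC]; exact bot_le)
      obtain ⟨e'⟩ := H816.OutEmb.out_congr e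
      have hs' : IsSimpleGroup (Matrix.ProjectiveSpecialLinearGroup (Fin 2) E) := by
        have := hs
        exact e.symm.isSimpleGroup
      have hZ : Subgroup.center (Matrix.ProjectiveSpecialLinearGroup (Fin 2) E) = ⊥ := by
        rcases IsSimpleGroup.eq_bot_or_eq_top_of_normal
          (Subgroup.center (Matrix.ProjectiveSpecialLinearGroup (Fin 2) E)) inferInstance with h2 | h2
        · exact h2
        · exfalso
          apply hna
          refine ⟨⟨fun a b => ?_⟩⟩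
          apply e.injective
          rw [map_mul, map_mul]
          exact (Subgroup.mem_center_iff.1 (h2 ▸ Subgroup.mem_top (e b)) (e a))
      rw [Nat.card_congr e'.toEquiv, H163.PG.card_out_psl_two (p := 13) (f := 1) (by norm_num) le_rfl
        (by rw [hE]; norm_num) (by rw [hE]; norm_num) hZ, hE] at h1
      exact h1
    refine not_psl13 hO1 h9 K S hs hc ?_ h7K
    intro h
    exact absurd (h.trans hind) (by norm_num)
  · -- `L₂(27)`
    exfalso
    obtain ⟨E, _, _, hE, ⟨e⟩⟩ := hg.real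
    obtain ⟨p, hp⟩ := CharP.exists E
    have : Fact p.Prime := ⟨CharP.char_is_prime E p⟩
    have h1 := S2475.result (F := E) p (by rw [hE]; norm_num)
    obtain ⟨x, hx⟩ := (Set.ext_iff.1 h1 14).2 (Or.inr (Or.inr (by rw [hE]; decide)))
    have h2 := hOS (e.symm x)
    rw [MulEquiv.orderOf_eq, hx] at h2
    rcases h2 with h | h | h | h | h <;> revert h <;> norm_num
  · -- `³D₄(2)`
    exfalso
    obtain ⟨E, _, _, hE, ⟨e⟩⟩ := hg.real
    obtain ⟨x, hx⟩ := Cfsg.Agent.H437.Iso.d4_orderA (K := E) (q := 2) (by norm_num : Nat.Prime 2).isPrimePow hE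
    have h2 := hOS (e.symm x)
    rw [MulEquiv.orderOf_eq, hx] at h2
    rcases h2 with h | h | h | h | h <;> revert h <;> norm_num
  · obtain ⟨E, _, _, hE, ⟨e⟩⟩ := hg.real
    have σ : E ≃+* F := FiniteField.ringEquivOfCardEq (by rw [hE, hF])
    obtain ⟨f⟩ := Cfsg.Agent.H902.Iso.chev_congr σ chevG2
    exact ⟨e.trans f⟩

end Cfsg.Agent.H369.G3.Q3
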